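import Cfsg.Agent.H188.LFive

/-!
# The group `E` of order 81 of transvections of `SL₅(3)` with a fixed centre: weights in characteristic 2

`T φ` is the transvection, `P u` the sum over the `T φ` with `φ · u = 0`, `Wt u z`: `z` is fixed by these and the sum of `z`
over `E` is 0.
-/

set_option autoImplicit false

namespace Cfsg.Agent.H188.LFive

open Matrix

/-- functionals, vectors -/
abbrev U := Fin 4 → ZMod 3

/-- the functional on the space of dimension 5 -/
def ex (φ : U) : Fin 5 → ZMod 3 := Fin.cons 0 φ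

/-- the transvection -/
def Tm (φ : U) : M := 1 + vecMulVec (Pi.single 0 1) (ex φ)

theorem ex_add (φ ψ : U) : ex (φ + ψ) = ex φ + ex ψ := by
  funext i
  refine Fin.cases ?_ (fun i => ?_) i <;> simp [ex]

/-- the product -/
def dot (φ u : U) : ZMod 3 := φ 0 * u 0 + φ 1 * u 1 + φ 2 * u 2 + φ 3 * u 3

theorem dot_add (φ ψ u : U) : dot (φ + ψ) u = dot φ u + dot ψ u := by
  simp only [dot, Pi.add_apply]; ring

theorem dot_sub (φ ψ u : U) : dot (φ - ψ) u = dot φ u - dot ψ u := by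
  simp only [dot, Pi.sub_apply]; ring

theorem dot_smul (c : ZMod 3) (φ u : U) : dot (c • φ) u = c * dot φ u := by
  simp only [dot, Pi.smul_apply, smul_eq_mul]; ring

theorem dot_neg (φ u : U) : dot φ (-u) = - dot φ u := by
  simp only [dot, Pi.neg_apply]; ring

theorem Tm_mul (φ ψ : U) : Tm φ * Tm ψ = Tm (φ + ψ) := by
  unfold Tm
  rw [add_mul, mul_add, mul_add, vecMulVec_mul_vecMulVec, ex_add, vecMulVec_add]
  have h : ex φ ⬝ᵥ Pi.single 0 1 = 0 := by simp [ex]
  rw [h, zero_smul, vecMulVec_zero]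
  simp only [mul_one, one_mul, add_zero]
  abel

theorem Tm_zero : Tm 0 = 1 := by
  unfold Tm
  have h : ex 0 = 0 := by
    funext i
    refine Fin.cases ?_ (fun i => ?_) i <;> simp [ex]
  rw [h, vecMulVec_zero, add_zero]

theorem Tm_pow (φ : U) : Tm φ ^ 3 = 1 := by
  rw [pow_succ, pow_two, Tm_mul, Tm_mul]
  have h : φ + φ + φ = 0 := by
    funext i
    have : ∀ c : ZMod 3, c + c + c = 0 := by decide
    exact this _
  rw [h, Tm_zero]

theorem det_Tm (φ : U) : (Tm φ).det = 1 := by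
  have h1 : (Tm φ).det ^ 3 = 1 := by rw [← det_pow, Tm_pow, det_one]
  have h2 : ∀ c : ZMod 3, c ^ 3 = 1 → c = 1 := by decide
  exact h2 _ h1

/-- the transvection -/
def T (φ : U) : X := ⟨Tm φ, det_Tm φ⟩

theorem T_mul (φ ψ : U) : T φ * T ψ = T (φ + ψ) := Subtype.ext (Tm_mul φ ψ)

theorem T_zero : T 0 = 1 := Subtype.ext Tm_zero

theorem T_inj {φ ψ : U} (h : T φ = T ψ) : φ = ψ := by
  funext i
  have h1 : Tm φ 0 i.succ = Tm ψ 0 i.succ := by
    have := congrArg Subtype.val h
    exact congrFun (congrFun this 0) i.succ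
  simpa [Tm, ex, vecMulVec_apply] using h1

/-- the action on `F^5/⟨e₀⟩` -/
def Gv (g : M) (u : U) : U := fun i => ∑ j, g i.succ j.succ * u j

/-- elements normalizing `E` -/
structure Nm (g : M) : Prop where
  col : ∀ i : Fin 4, g i.succ 0 = 0
  eps : g 0 0 * g 0 0 = 1

/-- the functional after the conjugation -/
def Gf (g : M) (φ : U) : U := fun j => g 0 0 * ∑ i, φ i * g i.succ j.succ

theorem T_conj {g : X} (hg : Nm g.1) (φ : U) : T φ * g = g * T (Gf g.1 φ) := by
  refine Subtype.ext (?_ : Tm φ * g.1 = g.1 * Tm (Gf g.1 φ))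
  unfold Tm
  rw [add_mul, mul_add, one_mul, mul_one, vecMulVec_mul, mul_vecMulVec]
  congr 1
  have h1 : g.1 *ᵥ Pi.single 0 1 = g.1 0 0 • Pi.single 0 1 := by
    funext i
    refine Fin.cases ?_ (fun i => ?_) i
    · simp
    · simp [hg.col i]
  have h2 : ex φ ᵥ* g.1 = g.1 0 0 • ex (Gf g.1 φ) := by
    funext j
    refine Fin.cases ?_ (fun j => ?_) j
    · simp [ex, vecMul, dotProduct, Fin.sum_univ_succ (n := 4), hg.col]
    · have h3 : (g.1 0 0 • ex (Gf g.1 φ)) j.succ = g.1 0 0 * g.1 0 0 * ∑ i, φ i * g.1 i.succ j.succ := by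
        simp [ex, Gf, mul_assoc]
      rw [h3, hg.eps, one_mul]
      simp [ex, vecMul, dotProduct, Fin.sum_univ_succ (n := 4)]
  rw [h1, h2, vecMulVec_smul, smul_vecMulVec]

theorem dot_Gf (g : M) (φ u : U) : dot (Gf g φ) u = g 0 0 * dot φ (Gv g u) := by
  simp only [dot, Gf, Gv, Fin.sum_univ_four]
  ring

end Cfsg.Agent.H188.LFive
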